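-- Certificate checks for HNP1.
import Cfsg.Agent.Lib.Compute.TC.HNP1.Data
import Cfsg.Agent.Lib.Compute.TCSplit
set_option autoImplicit false
set_option Elab.async false
set_option maxRecDepth 1000000

open Cfsg.Agent.Lib.Compute.ToddCoxeterCore Cfsg.Agent.Lib.Compute.ToddCoxeterPresented Cfsg.Agent.Lib.Compute.TCFast

open Cfsg.Agent.Lib.Compute.TCSplit

namespace Cfsg.Agent.Lib.Compute.TC.HNP1

theorem keys0x0 : allFrom cfg.chkKey (nat_lit 18264) (nat_lit 0) = true := by decide +kernel
theorem keys0x1 : allFrom cfg.chkKey (nat_lit 18264) (nat_lit 18264) = true := by decide +kernel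
theorem keys0x2 : allFrom cfg.chkKey (nat_lit 18264) (nat_lit 36528) = true := by decide +kernel
theorem keys0x3 : allFrom cfg.chkKey (nat_lit 18263) (nat_lit 54792) = true := by decide +kernel
theorem keys0x4 : allFrom cfg.chkKey (nat_lit 18263) (nat_lit 73055) = true := by decide +kernel
theorem keys0c1 : allFrom cfg.chkKey (nat_lit 36528) (nat_lit 0) = true := join keys0x0 keys0x1 rfl rfl
theorem keys0c2 : allFrom cfg.chkKey (nat_lit 54792) (nat_lit 0) = true := join keys0c1 keys0x2 rfl rfl
theorem keys0c3 : allFrom cfg.chkKey (nat_lit 73055) (nat_lit 0) = true := join keys0c2 keys0x3 rfl rfl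
theorem keys0 : allFrom cfg.chkKey (nat_lit 91318) (nat_lit 0) = true := join keys0c3 keys0x4 rfl rfl

end Cfsg.Agent.Lib.Compute.TC.HNP1
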