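-- Certificate checks for HNP1.
import Cfsg.Agent.Lib.Compute.TC.HNP1.Data
import Cfsg.Agent.Lib.Compute.TCSplit
set_option autoImplicit false
set_option Elab.async false
set_option maxRecDepth 1000000

open Cfsg.Agent.Lib.Compute.ToddCoxeterCore Cfsg.Agent.Lib.Compute.ToddCoxeterPresented Cfsg.Agent.Lib.Compute.TCFast

open Cfsg.Agent.Lib.Compute.TCSplit

namespace Cfsg.Agent.Lib.Compute.TC.HNP1

theorem keys1x0 : allFrom cfg.chkKey (nat_lit 21721) (nat_lit 91318) = true := by decide +kernel
theorem keys1x1 : allFrom cfg.chkKey (nat_lit 21721) (nat_lit 113039) = true := by decide +kernel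
theorem keys1x2 : allFrom cfg.chkKey (nat_lit 21721) (nat_lit 134760) = true := by decide +kernel
theorem keys1x3 : allFrom cfg.chkKey (nat_lit 21720) (nat_lit 156481) = true := by decide +kernel
theorem keys1x4 : allFrom cfg.chkKey (nat_lit 21720) (nat_lit 178201) = true := by decide +kernel
theorem keys1c1 : allFrom cfg.chkKey (nat_lit 43442) (nat_lit 91318) = true := join keys1x0 keys1x1 rfl rfl
theorem keys1c2 : allFrom cfg.chkKey (nat_lit 65163) (nat_lit 91318) = true := join keys1c1 keys1x2 rfl rfl
theorem keys1c3 : allFrom cfg.chkKey (nat_lit 86883) (nat_lit 91318) = true := join keys1c2 keys1x3 rfl rfl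
theorem keys1 : allFrom cfg.chkKey (nat_lit 108603) (nat_lit 91318) = true := join keys1c3 keys1x4 rfl rfl

end Cfsg.Agent.Lib.Compute.TC.HNP1
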