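-- Certificate checks for HNP1.
import Cfsg.Agent.Lib.Compute.TC.HNP1.Data
import Cfsg.Agent.Lib.Compute.TCSplit
set_option autoImplicit false
set_option Elab.async false
set_option maxRecDepth 1000000

open Cfsg.Agent.Lib.Compute.ToddCoxeterCore Cfsg.Agent.Lib.Compute.ToddCoxeterPresented Cfsg.Agent.Lib.Compute.TCFast

open Cfsg.Agent.Lib.Compute.TCSplit

namespace Cfsg.Agent.Lib.Compute.TC.HNP1

theorem keys3x0 : allFrom cfg.chkKey (nat_lit 25634) (nat_lit 318871) = true := by decide +kernel
theorem keys3x1 : allFrom cfg.chkKey (nat_lit 25633) (nat_lit 344505) = true := by decide +kernel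
theorem keys3x2 : allFrom cfg.chkKey (nat_lit 25633) (nat_lit 370138) = true := by decide +kernel
theorem keys3x3 : allFrom cfg.chkKey (nat_lit 25633) (nat_lit 395771) = true := by decide +kernel
theorem keys3x4 : allFrom cfg.chkKey (nat_lit 25633) (nat_lit 421404) = true := by decide +kernel
theorem keys3c1 : allFrom cfg.chkKey (nat_lit 51267) (nat_lit 318871) = true := join keys3x0 keys3x1 rfl rfl
theorem keys3c2 : allFrom cfg.chkKey (nat_lit 76900) (nat_lit 318871) = true := join keys3c1 keys3x2 rfl rfl
theorem keys3c3 : allFrom cfg.chkKey (nat_lit 102533) (nat_lit 318871) = true := join keys3c2 keys3x3 rfl rfl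
theorem keys3 : allFrom cfg.chkKey (nat_lit 128166) (nat_lit 318871) = true := join keys3c3 keys3x4 rfl rfl

end Cfsg.Agent.Lib.Compute.TC.HNP1
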