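-- Certificate checks for HNP1.
import Cfsg.Agent.Lib.Compute.TC.HNP1.Data
import Cfsg.Agent.Lib.Compute.TCSplit
set_option autoImplicit false
set_option Elab.async false
set_option maxRecDepth 1000000

open Cfsg.Agent.Lib.Compute.ToddCoxeterCore Cfsg.Agent.Lib.Compute.ToddCoxeterPresented Cfsg.Agent.Lib.Compute.TCFast

open Cfsg.Agent.Lib.Compute.TCSplit

namespace Cfsg.Agent.Lib.Compute.TC.HNP1

theorem keys4x0 : allFrom cfg.chkKey (nat_lit 7416) (nat_lit 447037) = true := by decide +kernel
theorem keys4x1 : allFrom cfg.chkKey (nat_lit 7416) (nat_lit 454453) = true := by decide +kernel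
theorem keys4x2 : allFrom cfg.chkKey (nat_lit 7416) (nat_lit 461869) = true := by decide +kernel
theorem keys4x3 : allFrom cfg.chkKey (nat_lit 7416) (nat_lit 469285) = true := by decide +kernel
theorem keys4x4 : allFrom cfg.chkKey (nat_lit 7415) (nat_lit 476701) = true := by decide +kernel
theorem keys4c1 : allFrom cfg.chkKey (nat_lit 14832) (nat_lit 447037) = true := join keys4x0 keys4x1 rfl rfl
theorem keys4c2 : allFrom cfg.chkKey (nat_lit 22248) (nat_lit 447037) = true := join keys4c1 keys4x2 rfl rfl
theorem keys4c3 : allFrom cfg.chkKey (nat_lit 29664) (nat_lit 447037) = true := join keys4c2 keys4x3 rfl rfl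
theorem keys4 : allFrom cfg.chkKey (nat_lit 37079) (nat_lit 447037) = true := join keys4c3 keys4x4 rfl rfl

end Cfsg.Agent.Lib.Compute.TC.HNP1
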