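-- Certificate checks for HNP1.
import Cfsg.Agent.Lib.Compute.TC.HNP1.Data
import Cfsg.Agent.Lib.Compute.TCSplit
set_option autoImplicit false
set_option Elab.async false
set_option maxRecDepth 1000000

open Cfsg.Agent.Lib.Compute.ToddCoxeterCore Cfsg.Agent.Lib.Compute.ToddCoxeterPresented Cfsg.Agent.Lib.Compute.TCFast

open Cfsg.Agent.Lib.Compute.TCSplit

namespace Cfsg.Agent.Lib.Compute.TC.HNP1

theorem rel0x0 : allFrom (chkRelF cfg relsL) (nat_lit 118) (nat_lit 0) = true := by decide +kernel
theorem rel0x1 : allFrom (chkRelF cfg relsL) (nat_lit 118) (nat_lit 118) = true := by decide +kernel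
theorem rel0x2 : allFrom (chkRelF cfg relsL) (nat_lit 118) (nat_lit 236) = true := by decide +kernel
theorem rel0x3 : allFrom (chkRelF cfg relsL) (nat_lit 118) (nat_lit 354) = true := by decide +kernel
theorem rel0x4 : allFrom (chkRelF cfg relsL) (nat_lit 117) (nat_lit 472) = true := by decide +kernel
theorem rel0x5 : allFrom (chkRelF cfg relsL) (nat_lit 117) (nat_lit 589) = true := by decide +kernel
theorem rel0x6 : allFrom (chkRelF cfg relsL) (nat_lit 117) (nat_lit 706) = true := by decide +kernel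
theorem rel0x7 : allFrom (chkRelF cfg relsL) (nat_lit 117) (nat_lit 823) = true := by decide +kernel
theorem rel0x8 : allFrom (chkRelF cfg relsL) (nat_lit 117) (nat_lit 940) = true := by decide +kernel
theorem rel0x9 : allFrom (chkRelF cfg relsL) (nat_lit 117) (nat_lit 1057) = true := by decide +kernel
theorem rel0x10 : allFrom (chkRelF cfg relsL) (nat_lit 117) (nat_lit 1174) = true := by decide +kernel
theorem rel0x11 : allFrom (chkRelF cfg relsL) (nat_lit 117) (nat_lit 1291) = true := by decide +kernel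
theorem rel0c1 : allFrom (chkRelF cfg relsL) (nat_lit 236) (nat_lit 0) = true := join rel0x0 rel0x1 rfl rfl
theorem rel0c2 : allFrom (chkRelF cfg relsL) (nat_lit 354) (nat_lit 0) = true := join rel0c1 rel0x2 rfl rfl
theorem rel0c3 : allFrom (chkRelF cfg relsL) (nat_lit 472) (nat_lit 0) = true := join rel0c2 rel0x3 rfl rfl
theorem rel0c4 : allFrom (chkRelF cfg relsL) (nat_lit 589) (nat_lit 0) = true := join rel0c3 rel0x4 rfl rfl
theorem rel0c5 : allFrom (chkRelF cfg relsL) (nat_lit 706) (nat_lit 0) = true := join rel0c4 rel0x5 rfl rfl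
theorem rel0c6 : allFrom (chkRelF cfg relsL) (nat_lit 823) (nat_lit 0) = true := join rel0c5 rel0x6 rfl rfl
theorem rel0c7 : allFrom (chkRelF cfg relsL) (nat_lit 940) (nat_lit 0) = true := join rel0c6 rel0x7 rfl rfl
theorem rel0c8 : allFrom (chkRelF cfg relsL) (nat_lit 1057) (nat_lit 0) = true := join rel0c7 rel0x8 rfl rfl
theorem rel0c9 : allFrom (chkRelF cfg relsL) (nat_lit 1174) (nat_lit 0) = true := join rel0c8 rel0x9 rfl rfl
theorem rel0c10 : allFrom (chkRelF cfg relsL) (nat_lit 1291) (nat_lit 0) = true := join rel0c9 rel0x10 rfl rfl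
theorem rel0 : allFrom (chkRelF cfg relsL) (nat_lit 1408) (nat_lit 0) = true := join rel0c10 rel0x11 rfl rfl

end Cfsg.Agent.Lib.Compute.TC.HNP1
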